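import Cfsg.Agent.H610.GLB.DE

/-!
# S4536 / S4537, section DE: the family of one orbit, `p ∣ Q - 1` (helper610)
-/

set_option autoImplicit false
set_option linter.unusedSectionVars false
set_option linter.unusedVariables false

namespace Cfsg.Agent.H610.GLB

open Cfsg.Agent.H577.GLB.Std Cfsg.Agent.H614

variable {Q : ℤ} {M : ℕ} [NeZero M] {p : ℕ} {m n : ℕ}

theorem sameZ_trans_iff (hQ : IsUnit (Q : ZMod M)) {d c : ZMod M} (k : ℕ) :
    SameZ Q M d ((Q : ZMod M) ^ k * c) ↔ SameZ Q M d c := by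
  constructor
  · rintro ⟨j, hj⟩
    obtain ⟨i, hi⟩ := inv_pow hQ k
    refine ⟨i + j, ?_⟩
    rw [pow_add, mul_assoc, ← hj, ← mul_assoc, hi, one_mul]
  · rintro ⟨j, rfl⟩
    exact ⟨k + j, by rw [pow_add, mul_assoc]⟩

open Classical in
theorem card_orbit (hQ : IsUnit (Q : ZMod M)) (d : ZMod M) :
    (Finset.univ.filter fun c : ZMod M => SameZ Q M d c).card = perZ Q M d := by
  rw [← Finset.card_range (perZ Q M d)]
  symm
  refine Finset.card_bij (fun j _ => (Q : ZMod M) ^ j * d) (fun j _ => Finset.mem_filter.2 ⟨Finset.mem_univ _, j, rfl⟩) ?_ ?_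
  · intro i hi j hj h
    have h1 := Function.iterate_injOn_Iio_minimalPeriod (f := fun x : ZMod M => (Q : ZMod M) * x) (x := d)
      (Set.mem_Iio.2 (Finset.mem_range.1 hi)) (Set.mem_Iio.2 (Finset.mem_range.1 hj))
    apply h1
    show (fun x : ZMod M => (Q : ZMod M) * x)^[i] d = (fun x : ZMod M => (Q : ZMod M) * x)^[j] d
    rw [iterate_mul, iterate_mul]
    exact h
  · intro c hc
    obtain ⟨j, rfl⟩ := (Finset.mem_filter.1 hc).2
    exact ⟨j % perZ Q M d, Finset.mem_range.2 (Nat.mod_lt _ (perZ_pos hQ d)), pow_mod_perZ d j⟩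

theorem bsz_id : bsz (fun i : Fin m => (i : ℕ)) = 0 := by
  unfold bsz
  exact Nat.sub_self _

open Classical in
theorem sum_orbit (hQ : IsUnit (Q : ZMod M)) (d : ZMod M) (f : ZMod M → ℕ) (v : ℕ) (h1 : ∀ c, SameZ Q M d c → f c = v)
    (h2 : ∀ c, ¬ SameZ Q M d c → f c = 0) : ∑ c, f c = perZ Q M d * v := by
  rw [← card_orbit hQ d, ← smul_eq_mul, ← Finset.sum_const, Finset.sum_filter]
  refine Finset.sum_congr rfl fun c _ => ?_
  split_ifs with h
  · exact h1 c h
  · exact h2 c h

theorem t_of_sameZ {t : ZMod M → Fin m → ℕ} (h : ∀ c, t ((Q : ZMod M) * c) = t c) {d c : ZMod M} (hc : SameZ Q M d c) :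
    t c = t d := by
  obtain ⟨j, rfl⟩ := hc
  exact orb_pow h j d

open Classical in
/-- one orbit, `p` divides `Q - 1`: the number of `p'`-labels is the number of partitions -/
theorem card_family_one (hp : p.Prime) (hQ : IsUnit (Q : ZMod M)) (hQp : (Q : ZMod p) = 1)
    {m n : ℕ} (hmn : n ≤ m) (t0 : LabZ Q M m n) (h0 : POnly M p t0.t) (δ0 : ZMod M)
    (h1 : ∀ δ, 0 < bsz (t0.t δ) → SameZ Q M δ0 δ) :
    nfix Q M p t0 0 = Fintype.card (Nat.Partition (bsz (t0.t δ0))) ∧
    n = perZ Q M δ0 * bsz (t0.t δ0) ∧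
    ∀ a, Stab Q M p t0 a → SF Q M p t0 a ∧ nfix Q M p t0 a = nfix Q M p t0 0 := by
  have h1' : ∀ c, ¬ SameZ Q M δ0 c → bsz (t0.t c) = 0 := fun c hc => by
    by_contra hne
    exact hc (h1 c (Nat.pos_of_ne_zero hne))
  have hn : n = perZ Q M δ0 * bsz (t0.t δ0) :=
    t0.sum.symm.trans (sum_orbit hQ δ0 _ _ (fun c hc => by rw [t_of_sameZ t0.orb hc]) h1')
  -- the sizes are the same in the family
  have hb : ∀ t : LabZ Q M m n, POnly M p t.t → SameFam Q M p t0.t t.t → ∀ c, bsz (t0.t c) = bsz (t.t c) := by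
    intro t ht hf c
    by_cases hc : PReg M p c
    · exact ((sameFam_iff h0 ht).1 hf c hc).1
    · rw [h0 c hc, ht c hc]
  refine ⟨?_, hn, ?_⟩
  · rw [← card_KS_one ((bsz_le t0 δ0).trans hmn)]
    unfold nfix
    refine Nat.card_eq_of_bijective (fun t => (⟨t.1.t δ0, t.1.mono δ0, hb t.1 t.2.1 t.2.2.1 δ0, sameCol_one _ _⟩ :
      KS 1 (t0.t δ0))) ⟨?_, ?_⟩
    · intro t t' htt
      have h2 : t.1.t δ0 = t'.1.t δ0 := congrArg Subtype.val htt
      apply Subtype.ext
      apply LabZ.ext
      funext c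
      by_cases hc : SameZ Q M δ0 c
      · rw [t_of_sameZ t.1.orb hc, t_of_sameZ t'.1.orb hc, h2]
      · rw [eq_of_bsz_zero (t.1.mono c) (by rw [← hb t.1 t.2.1 t.2.2.1, h1' c hc]),
          eq_of_bsz_zero (t'.1.mono c) (by rw [← hb t'.1 t'.2.1 t'.2.2.1, h1' c hc])]
    · rintro ⟨β, hβ1, hβ2, -⟩
      let t : ZMod M → Fin m → ℕ := fun c => if SameZ Q M δ0 c then β else fun i : Fin m => (i : ℕ)
      have ht1 : ∀ c, SameZ Q M δ0 c → t c = β := fun c hc => if_pos hc
      have ht2 : ∀ c, ¬ SameZ Q M δ0 c → t c = fun i : Fin m => (i : ℕ) := fun c hc => if_neg hc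
      let tt : LabZ Q M m n :=
        { t := t
          mono := by
            intro c
            by_cases hc : SameZ Q M δ0 c
            · rw [ht1 c hc]; exact hβ1
            · rw [ht2 c hc]; exact fun i j hij => hij
          orb := by
            intro c
            have h3 := sameZ_trans_iff (d := δ0) (c := c) hQ 1
            rw [pow_one] at h3
            by_cases hc : SameZ Q M δ0 c
            · rw [ht1 c hc, ht1 _ (h3.2 hc)]
            · rw [ht2 c hc, ht2 _ (fun h => hc (h3.1 h))]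
          sum := by
            refine (sum_orbit hQ δ0 _ (bsz β) (fun c hc => by rw [ht1 c hc]) (fun c hc => by rw [ht2 c hc, bsz_id])).trans ?_
            rw [← hβ2]
            exact hn.symm }
      have hbt : ∀ c, bsz (t0.t c) = bsz (t c) := by
        intro c
        by_cases hc : SameZ Q M δ0 c
        · rw [ht1 c hc, t_of_sameZ t0.orb hc]; exact hβ2
        · rw [ht2 c hc, bsz_id, h1' c hc]
      have hpo : POnly M p tt.t := fun c hc => by rw [← hbt c, h0 c hc]
      refine ⟨⟨tt, hpo, ?_, fun c => by rw [add_zero]⟩, ?_⟩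
      · rw [sameFam_iff h0 hpo]
        intro δ _
        rw [eD_one hQp]
        exact ⟨hbt δ, sameCol_one _ _⟩
      · apply Subtype.ext
        exact ht1 δ0 ⟨0, by rw [pow_zero, one_mul]⟩
  · intro a ha
    have haA : a ∈ stA t0 h0 := ha
    have hpair : ∀ c, 0 < bsz (t0.t c) → SameZ Q M δ0 c ∧ SameZ Q M δ0 (c + a) := by
      intro c hc
      have hreg : PReg M p c := by
        by_contra hcon
        rw [h0 c hcon] at hc
        exact lt_irrefl _ hc
      refine ⟨h1 c hc, h1 _ ?_⟩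
      rw [← (stA_fam haA hreg).1]
      exact hc
    refine ⟨⟨ha, fun δ hδ hw => ?_⟩, ?_⟩
    · rw [eD_one hQp, ewt_one] at hw
      obtain ⟨⟨i, hi⟩, ⟨k, hk⟩⟩ := hpair δ hw
      obtain ⟨l, hl⟩ := inv_pow hQ i
      refine ⟨k + l, ?_⟩
      rw [hQp, orderOf_one, pow_one, hk, pow_add, mul_assoc]
      congr 1
      rw [hi, ← mul_assoc, hl, one_mul]
    · unfold nfix
      refine Nat.card_congr (Equiv.subtypeEquivRight fun t => ?_)
      refine and_congr_right fun ht => and_congr_right fun hf => ?_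
      constructor
      · intro _ c
        rw [add_zero]
      · intro _ c
        rcases Nat.eq_zero_or_pos (bsz (t0.t c)) with hc | hc
        · have h3 : bsz (t0.t (c + a)) = 0 := by
            by_cases hreg : PReg M p c
            · rw [← (stA_fam haA hreg).1, hc]
            · apply h0
              intro h4
              apply hreg
              have h5 := pReg_sub h4 (stA_pReg haA)
              rwa [add_sub_cancel_right] at h5
          rw [eq_of_bsz_zero (t.mono c) (by rw [← hb t ht hf, hc]),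
            eq_of_bsz_zero (t.mono (c + a)) (by rw [← hb t ht hf, h3])]
        · obtain ⟨h3, h4⟩ := hpair c hc
          rw [t_of_sameZ t.orb h3, t_of_sameZ t.orb h4]

end Cfsg.Agent.H610.GLB
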